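import Cfsg.Agent.StdL2.Defs
import Cfsg.Agent.StdU3.Base
import Cfsg.Agent.Perm.FieldOfEnd

/-! # 2-groups with an involutory automorphism whose fixed points form a Singer module -/

set_option autoImplicit false

namespace Cfsg.Lib.StdL2

open Subgroup Cfsg.Lib.Gold Cfsg.Lib.Trans Cfsg.Lib.StdSz
open scoped commutatorElement

variable {G : Type*} [Group G] [Finite G] {F : Type*} [Field F] [Finite F]

/-- A normal 2-subgroup with abelian quotient in which `t` has centraliser `V`. -/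
structure Sg (D : Dat G F) (N : Subgroup G) : Prop where
  two : IsPGroup 2 N
  comm : ∀ x y : G, ⁅x, y⁆ ∈ N
  V_le : D.V ≤ N
  cen : ∀ x ∈ N, Commute x D.t → x ∈ D.V
  t_not : D.t ∉ N

theorem Mod.t_mem_B (M : Mod G F) : M.t ∈ M.B := M.mem_B.2 ⟨.refl _, M.mem_Ns_V M.t_v⟩

theorem Mod.h_mem_B' (M : Mod G F) (k : Fˣ) : M.h k ∈ M.B :=
  M.mem_B.2 ⟨(M.t_h k).symm, mem_Ns (by rintro _ ⟨b, rfl⟩; rw [M.h_v]; exact M.v_mem _)⟩

theorem Mod.exists_k (M : Mod G F) : ∃ k : Fˣ, (k : F) ≠ 1 := by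
  obtain ⟨z, h0, h1⟩ := exists_ne_zero_one (F := F) (by have := M.big; omega)
  exact ⟨Units.mk0 z h0, h1⟩

theorem Mod.eq_one_of_h (M : Mod G F) {k : Fˣ} (hk : (k : F) ≠ 1) {x : G} (hx : x ∈ M.V)
    (e : Commute x (M.h k)) : x = 1 := by
  obtain ⟨b, rfl⟩ := hx
  have := M.v_inj ((M.h_v k b).symm.trans (conj_eq_of_commute e.symm))
  rw [M.v_eq_one, ← mul_right_inj' (sub_ne_zero.2 hk), sub_mul, this, one_mul, sub_self, mul_zero]

namespace Sg

variable {D : Dat G F} {N Z : Subgroup G} (h : Sg D N)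
include h

theorem conj_mem {x : G} (hx : x ∈ N) (g : G) : g * x * g⁻¹ ∈ N := by
  simpa [commutatorElement_def] using mul_mem (h.comm g x) hx

theorem le_N {k : Fˣ} (hk : D.h k ∈ Ns Z) (hf : ∀ z ∈ Z, Commute z (D.h k) → z = 1) : Z ≤ N := by
  let f : Z → Z := fun z => ⟨z.1⁻¹ * (D.h k * z * (D.h k)⁻¹),
    mul_mem (inv_mem z.2) ((mem_normalizer_iff.1 hk _).1 z.2)⟩
  have : Function.Injective f := fun x y e => by
    have e : x.1⁻¹ * (D.h k * x * (D.h k)⁻¹) = y.1⁻¹ * (D.h k * y * (D.h k)⁻¹) :=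
      congrArg Subtype.val e
    refine Subtype.ext (mul_inv_eq_one.1 (hf _ (mul_mem x.2 (inv_mem y.2))
      (commute_of_conj_eq ?_).symm))
    calc D.h k * (x * y.1⁻¹) * (D.h k)⁻¹ =
        x * (x.1⁻¹ * (D.h k * x * (D.h k)⁻¹)) * (D.h k * y * (D.h k)⁻¹)⁻¹ := by group
      _ = _ := by rw [e]; group
  intro z hz
  obtain ⟨y, e⟩ := Finite.injective_iff_surjective.1 this ⟨z, hz⟩
  rw [← show y.1⁻¹ * (D.h k * y * (D.h k)⁻¹) = z from congrArg Subtype.val e]
  simpa [commutatorElement_def, mul_assoc] using h.comm y.1⁻¹ (D.h k)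

theorem eq_N (hV : D.V ≤ Z) (hZ : Z ≤ N) (ht : D.t ∈ Ns Z)
    (H : ∀ g ∈ Ns (Z ⊔ zpowers D.t), ∀ z ∈ Z, g * D.t * g⁻¹ = D.t * z →
      ∃ y ∈ Z, D.t * z = y * D.t * y⁻¹) : Z = N := by
  have tN : D.t ∈ Ns N := mem_Ns fun x hx => h.conj_mem hx _
  have : Fact (Nat.Prime 2) := ⟨Nat.prime_two⟩
  refine le_antisymm hZ fun x hx => ?_
  suffices N ⊔ zpowers D.t ≤ Z ⊔ zpowers D.t from
    ((StdU3.mem_sup_invol D.t_sq ht).1 (this (mem_sup_left hx))).resolve_right fun e =>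
      h.t_not ((mul_mem_cancel_right hx).1 (hZ e))
  by_contra e
  obtain ⟨g, ⟨g1, g2⟩, g3⟩ := SetLike.exists_of_lt (lt_inf_normalizer (h.two.to_sup_of_normal_left'
    (two_zpowers (k := 1) (by simpa [sq] using D.t_sq)) (zpowers_le.2 tN))
    (lt_of_le_not_ge (sup_le_sup_right hZ _) e))
  have m := (mem_normalizer_iff.1 g2 _).1 (mem_sup_right (mem_zpowers D.t))
  have m := ((StdU3.mem_sup_invol D.t_sq ht).1 m).resolve_left fun e =>
    h.t_not (by simpa [mul_assoc] using h.conj_mem (hZ e) g⁻¹)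
  obtain ⟨y, hy, e⟩ := H g g2 _ m (D.tt_mul _).symm
  rw [D.tt_mul] at e
  have c : Commute (y⁻¹ * g) D.t := commute_of_conj_eq (by
    rw [show y⁻¹ * g * D.t * (y⁻¹ * g)⁻¹ = y⁻¹ * (g * D.t * g⁻¹) * y by group, e]; group)
  refine g3 ((mul_mem_cancel_left (inv_mem (mem_sup_left hy))).1
    ((StdU3.mem_sup_invol D.t_sq ht).2 (((StdU3.mem_sup_invol D.t_sq tN).1
      (mul_mem (inv_mem (mem_sup_left (hZ hy))) g1)).imp (fun a => hV (h.cen _ a c))
        fun a => hV (h.cen _ a ((Commute.refl _).mul_left c)))))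

theorem Ns_W : Ns D.W ≤ Ns D.V := fun g hg => mem_Ns fun x hx =>
  ((StdU3.mem_sup_invol D.t_sq D.t_mem_B.2).1
    ((mem_normalizer_iff.1 hg x).1 (mem_sup_left hx))).resolve_right fun e =>
      h.t_not ((mul_mem_cancel_right (h.conj_mem (h.V_le hx) g)).1 (h.V_le e))

theorem q3 (E : Q3 D) : E.P = N := by
  obtain ⟨k, hk⟩ := D.exists_k
  have tP := E.B_le D.t_mem_B
  have tm : ∀ y ∈ E.P, D.t * y * D.t ∈ E.P := fun y hy => by
    simpa [D.t_inv] using (mem_normalizer_iff.1 tP y).1 hy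
  have hP : E.P ≤ N := h.le_N (E.B_le (D.h_mem_B' k)) fun z hz c => by
    obtain ⟨m, m1, m2⟩ := E.H_P k
    obtain ⟨e1, e2⟩ := m2 z hz
    rw [conj_eq_of_commute c.symm] at e1 e2
    have : 1 - m ≠ 0 := fun a => hk (by rw [← m1, ← sub_eq_zero.1 a, one_mul])
    exact D.eq_one_of_h hk (E.ker z hz
      ((mul_eq_zero.1 (by linear_combination e1)).resolve_left this)
      ((mul_eq_zero.1 (by linear_combination e2)).resolve_left this)) c
  have rs : ∀ y ∈ E.P, E.r (D.t * y * D.t * y⁻¹) = E.s y ∧ E.s (D.t * y * D.t * y⁻¹) = 0 :=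
    fun y hy => by
      rw [E.r_add _ (tm y hy) _ (inv_mem hy), E.s_add _ (tm y hy) _ (inv_mem hy), E.r_add.inv hy,
        E.s_add.inv hy, (E.t_P y hy).1, (E.t_P y hy).2]
      exact ⟨by ring, by ring⟩
  have U : ∀ b, ∃ u ∈ E.P, D.t * u * D.t * u⁻¹ = D.v b := fun b => by
    by_cases b0 : b = 0
    · exact ⟨1, one_mem _, by simp [b0, D.t_sq]⟩
    obtain ⟨u, hu, u1, u2⟩ := E.surj 1 0
    obtain ⟨c, e⟩ := E.ker _ (mul_mem (tm u hu) (inv_mem hu)) ((rs u hu).1.trans u2) (rs u hu).2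
    have c0 : c ≠ 0 := fun a => by
      rw [a, D.v_zero, mul_inv_eq_one] at e
      obtain ⟨d, rfl⟩ := h.cen u (hP hu) (commute_of_conj_eq (by rwa [D.t_inv])).symm
      exact zero_ne_one ((E.rs_v d).1.symm.trans u1)
    obtain ⟨m, hm⟩ : ∃ m : Fˣ, m * c = b := ⟨.mk0 _ (div_ne_zero b0 c0), div_mul_cancel₀ b c0⟩
    refine ⟨_, (mem_normalizer_iff.1 (E.B_le (D.h_mem_B' m)) u).1 hu, ?_⟩
    rw [← hm, ← D.h_v, ← e]
    conv_lhs => rw [← conj_eq_of_commute (D.t_h m).symm]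
    group
  refine h.eq_N E.V_le hP tP fun g _ z hz e => ?_
  have z2 : D.t * z * D.t = z⁻¹ := eq_inv_of_mul_eq_one_left (by
    rw [mul_assoc, ← e, conj_sq, D.t_sq]; simp)
  have s0 : E.s z = 0 := by
    have := (E.t_P z hz).1
    rw [z2, E.r_add.inv hz, D.negF] at this
    exact left_eq_add.1 this
  obtain ⟨y, hy, -, y2⟩ := E.surj 0 (E.r z)
  have m := mul_mem (tm y hy) (inv_mem hy)
  obtain ⟨b, hb⟩ := E.ker _ (mul_mem (inv_mem m) hz)
    (by rw [E.r_add _ (inv_mem m) _ hz, E.r_add.inv m, (rs y hy).1, y2, neg_add_cancel])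
    (by rw [E.s_add _ (inv_mem m) _ hz, E.s_add.inv m, (rs y hy).2, s0, neg_add_cancel])
  obtain ⟨u, hu, u1⟩ := U b
  refine ⟨y * u, mul_mem hy hu, ?_⟩
  rw [eq_mul_of_inv_mul_eq hb, mul_assoc _ y⁻¹, (E.cV _ (inv_mem hy) b).eq, ← u1]
  simp only [mul_assoc, D.tt_mul, mul_inv_rev]

theorem main (na : ¬ IsMulCommutative N) (H : Ns D.W ≤ C1 D.t ∨ (∃ Z, Top D Z) ∨
    Nonempty (El D) ∨ Nonempty (Q3 D) ∨ ∃ U, Exc D U) : ∃ E : Q3 D, E.P = N := by
  obtain ⟨k, hk⟩ := D.exists_k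
  have A : ∀ Z : Subgroup G, Z = N → (∀ z ∈ Z, ∀ z' ∈ Z, Commute z z') → ∃ E : Q3 D, E.P = N :=
    fun Z e c => (na ⟨⟨fun x y => Subtype.ext (c _ (e ▸ x.2) _ (e ▸ y.2))⟩⟩).elim
  obtain H | ⟨Z, H⟩ | ⟨⟨E⟩⟩ | ⟨⟨E⟩⟩ | ⟨U, H⟩ := H
  · refine A _ (h.eq_N le_rfl h.V_le D.t_mem_B.2 fun g hg z _ e => ⟨1, one_mem _, ?_⟩) ?_
    · rw [← e, conj_eq_of_commute (StdSz.mem_C1.1 (H hg))]; simp
    · rintro _ ⟨b, rfl⟩ _ ⟨c, rfl⟩; exact D.v_comm b c
  · refine A _ (h.eq_N ?_ (h.le_N (H.B_le (D.h_mem_B' k)) fun z hz c => by_contra fun z1 => ?_)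
      (H.B_le D.t_mem_B) fun g hg z _ e => e ▸ H.term g hg) H.comm
    · rintro _ ⟨b, rfl⟩
      obtain ⟨z, hz, e⟩ := H.root b
      exact e ▸ mul_mem hz hz
    obtain ⟨j, hj⟩ := pow_of_two H.two hz
    induction j generalizing z with
    | zero => exact z1 (by simpa using hj)
    | succ j ih =>
      exact ih _ (mul_mem hz hz) (c.mul_left c) (fun a => z1 (D.eq_one_of_h hk (H.omega z hz a) c))
        (by rw [← sq, ← pow_mul, ← pow_succ', hj])
  · have cm : ∀ a ∈ E.Z, ∀ b ∈ E.Z, a * b = b * a := fun a ha b hb =>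
      StdU3.commute_of_invol (E.sq a ha) (E.sq b hb) (E.sq _ (mul_mem ha hb))
    refine A _ (h.eq_N E.V_le (h.le_N (E.B_le (D.h_mem_B' k)) fun z hz c => ?_)
      (E.B_le D.t_mem_B) fun g _ z hz e => ?_) cm
    · have := ((D.t_h k).mul_left c).mul_left (D.t_h k)
      rw [E.t_Z z hz] at this
      exact D.eq_one_of_h hk (E.ker z hz (D.v_eq_one.1
        (D.eq_one_of_h hk (D.v_mem _) (by simpa using c.inv_left.mul_left this)))) c
    · have : D.t * z * D.t * z = 1 := by rw [mul_assoc, ← e, conj_sq, D.t_sq]; simp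
      rw [E.t_Z z hz, mul_assoc, cm _ (E.V_le (D.v_mem _)) z hz, ← mul_assoc, E.sq z hz, one_mul,
        D.v_eq_one] at this
      obtain ⟨b, rfl⟩ := E.ker z hz this
      obtain ⟨y, hy, rfl⟩ := E.p_surj b
      refine ⟨y, hy, ?_⟩
      rw [← D.tt_mul (y * D.t * y⁻¹), ← mul_assoc D.t (y * _), ← mul_assoc D.t y, E.t_Z y hy,
        cm y hy _ (E.V_le (D.v_mem _)), mul_inv_cancel_right]
  · exact ⟨E, h.q3 E⟩
  have : CharP F 2 := CharTwo.of_one_ne_zero_of_two_eq_zero one_ne_zero D.two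
  obtain ⟨g, -, hg⟩ := H.lin (frobeniusEquiv F 2).toAddEquiv
  have e : ∀ b, ⁅g, D.h k⁆ * D.v b * ⁅g, D.h k⁆⁻¹ = D.v (k * b) := fun b => by
    obtain ⟨x, hx⟩ := (frobeniusEquiv F 2).surjective (k⁻¹ * b)
    have : D.v b = D.h k * (g * D.v x * g⁻¹) * (D.h k)⁻¹ := by
      rw [hg, D.h_v]; exact congrArg D.v (by rw [← k.mul_inv_cancel_left b, ← hx]; simp)
    rw [this, show ⁅g, D.h k⁆ * (D.h k * (g * D.v x * g⁻¹) * (D.h k)⁻¹) * ⁅g, D.h k⁆⁻¹ =
      g * (D.h k * D.v x * (D.h k)⁻¹) * g⁻¹ by simp only [commutatorElement_def]; group, D.h_v, hg]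
    refine congrArg D.v ?_
    rw [← k.mul_inv_cancel_left b, ← hx]
    simp [frobenius_def]; ring
  have p : ∀ m : ℕ, ⁅g, D.h k⁆ ^ m * D.v 1 * (⁅g, D.h k⁆ ^ m)⁻¹ = D.v (k ^ m) := fun m => by
    induction m with
    | zero => simp
    | succ m ih => rw [pow_succ' (k : F), ← e, ← ih, pow_succ']; simp only [mul_inv_rev, mul_assoc]
  obtain ⟨j, hj⟩ := pow_of_two h.two (h.comm g (D.h k))
  have := p (2 ^ j)
  rw [hj, one_mul, inv_one, mul_one] at this
  refine (hk (D.add_eq_zeroF.1 ((pow_eq_zero_iff (n := 2 ^ j) (by positivity)).1 ?_))).elim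
  rw [add_pow_char_pow, ← D.v_inj this, one_pow, D.addF]

end Sg

open SemidirectProduct in
theorem exists_sg.{u} {Q : Type u} [Group Q] [Finite Q] (hQ : IsPGroup 2 Q) {n : ℕ} (hn : 2 ≤ n)
    {α ρ : MulAut Q} (hα : orderOf α = 2) (hρ : orderOf ρ = 2 ^ n - 1) (hc : Commute α ρ)
    {C : Subgroup Q} (hC : ∀ x : Q, x ∈ C ↔ α x = x) (h2 : ∀ x ∈ C, x * x = 1)
    (card : Nat.card C = 2 ^ n)
    (htr : ∀ x y : Q, x ∈ C → y ∈ C → x ≠ 1 → y ≠ 1 → ∃ k : ℕ, (ρ ^ k) x = y) :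
    ∃ (G : Type u) (_ : Group G) (_ : Finite G) (F : Type) (_ : Field F) (_ : Finite F)
      (D : Dat G F) (N : Subgroup G), Sg D N ∧ Nat.card F = 2 ^ n ∧ Nonempty (Q ≃* N) := by
  have cm : ∀ a ∈ C, ∀ b ∈ C, a * b = b * a := fun a ha b hb =>
    StdU3.commute_of_invol (h2 a ha) (h2 b hb) (h2 _ (mul_mem ha hb))
  letI : CommGroup C := { (inferInstance : Group C) with
    mul_comm := fun a b => Subtype.ext (cm _ a.2 _ b.2) }
  have hρC : ∀ x ∈ C, ρ x ∈ C := fun x hx => (hC _).2 (by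
    rw [← MulAut.mul_apply, hc.eq, MulAut.mul_apply, (hC x).1 hx])
  let f : AddMonoid.End (Additive C) :=
    MonoidHom.toAdditive ((ρ.toMonoidHom.comp C.subtype).codRestrict C fun x => hρC _ x.2)
  have n4 : 4 ≤ 2 ^ n := Nat.pow_le_pow_right (n := 2) two_pos hn
  have : Nontrivial C := Finite.one_lt_card_iff_nontrivial.1 (by omega)
  obtain ⟨w, hw⟩ := exists_ne (0 : Additive C)
  obtain ⟨K, _, _, ε, -, hε, -⟩ := Perm.exists_field_of_irreducible {f} (by simp) (fun W hW =>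
    or_iff_not_imp_left.2 fun e => top_le_iff.1 fun y _ => by
      obtain ⟨⟨x, hx⟩, x0⟩ := AddSubgroup.ne_bot_iff_exists_ne_zero.1 e
      by_cases y0 : y = 0
      · exact y0 ▸ zero_mem W
      obtain ⟨k, hk⟩ := htr _ _ x.toMul.2 y.toMul.2 (fun a => x0 (Subtype.ext (Subtype.ext a)))
        fun a => y0 (Subtype.ext a)
      have : ∀ k, ∃ z ∈ W, z.toMul.1 = (ρ ^ k) x.toMul.1 := fun k => by
        induction k with
        | zero => exact ⟨x, hx, rfl⟩
        | succ k ih =>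
          obtain ⟨z, hz, e⟩ := ih
          exact ⟨_, hW f rfl z hz, by rw [pow_succ', MulAut.mul_apply, ← e]; rfl⟩
      obtain ⟨z, hz, e⟩ := this k
      exact (show z = y from Subtype.ext (e.trans hk)) ▸ hz) hw
  obtain ⟨c, hε⟩ := hε f rfl
  obtain ⟨v, va, vi, vC, vρ⟩ : ∃ v : K → Q, (∀ a b, v (a + b) = v a * v b) ∧ Function.Injective v ∧
      (∀ x, x ∈ C ↔ ∃ b, x = v b) ∧ ∀ b, ρ (v b) = v (c * b) :=
    ⟨fun b => (ε b).toMul.1, fun a b => by simp, fun a b e => ε.injective (Subtype.ext e),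
      fun x => ⟨fun hx => ⟨ε.symm (.ofMul ⟨x, hx⟩), by simp⟩, by rintro ⟨b, rfl⟩; exact (ε b).toMul.2⟩,
      fun b => congrArg (fun x => x.toMul.1) (hε b)⟩
  have cK : Nat.card K = 2 ^ n := (Nat.card_congr ε.toEquiv).trans card
  have v0 : v 0 = 1 := by simpa using va 0 0
  have vm : ∀ b, v b ∈ C := fun b => (vC _).2 ⟨b, rfl⟩
  have vp : ∀ (m : ℕ) b, (ρ ^ m) (v b) = v (c ^ m * b) := fun m b => by
    induction m with
    | zero => simp
    | succ m ih => rw [pow_succ', MulAut.mul_apply, ih, vρ, pow_succ', mul_assoc]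
  have c0 : c ≠ 0 := fun a => one_ne_zero (vi (ρ.injective
    (show ρ (v 1) = ρ (v 0) by rw [vρ, vρ, a, zero_mul, zero_mul])))
  have gen : ∀ k : Kˣ, ∃ m : ℕ, Units.mk0 c c0 ^ m = k := fun k => by
    obtain ⟨m, hm⟩ := htr _ _ (vm 1) (vm k) (fun a => one_ne_zero (vi (a.trans v0.symm)))
      fun a => k.ne_zero (vi (a.trans v0.symm))
    exact ⟨m, Units.ext (by simpa using vi ((vp m 1).symm.trans hm))⟩
  have gen' : ∀ k, k ∈ zpowers (Units.mk0 c c0) := fun k => (gen k).elim fun m e => e ▸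
    npow_mem_zpowers _ m
  have gz : ∀ k : ℤˣ, k ∈ zpowers (-1 : ℤˣ) := fun k => by
    rcases Int.units_eq_one_or k with rfl | rfl
    exacts [one_mem _, mem_zpowers _]
  obtain ⟨h0, hh⟩ : ∃ h0 : Kˣ →* MulAut Q, h0 (Units.mk0 c c0) = ρ :=
    ⟨_, monoidHomOfForallMemZpowers_apply_gen gen' (by
      rw [orderOf_eq_card_of_forall_mem_zpowers gen', Nat.card_units, cK, hρ])⟩
  obtain ⟨a0, ha⟩ : ∃ a0 : ℤˣ →* MulAut Q, a0 (-1) = α :=
    ⟨_, monoidHomOfForallMemZpowers_apply_gen gz (by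
      rw [orderOf_eq_card_of_forall_mem_zpowers gz, hα]; simp)⟩
  let φ := a0.noncommCoprod h0 fun e k => by
    obtain ⟨m, rfl⟩ := gen k
    rcases Int.units_eq_one_or e with rfl | rfl
    · simp
    · rw [map_pow, hh, ha]; exact hc.pow_right m
  have φv : ∀ γ b, φ γ (v b) = v (γ.2 * b) := fun γ b => by
    obtain ⟨m, e⟩ := gen γ.2
    rw [MonoidHom.noncommCoprod_apply, ← e, map_pow, hh, MulAut.mul_apply, vp]
    rcases Int.units_eq_one_or γ.1 with e | e <;> simp [e, ha, (hC _).1 (vm _)]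
  have : Finite (Q ⋊[φ] (ℤˣ × Kˣ)) := .of_equiv _ equivProd.symm
  set t : Q ⋊[φ] (ℤˣ × Kˣ) := inr (-1, 1) with ht
  have tt : t * t = 1 := by rw [ht, ← map_mul, ← map_one inr]; congr 1; ext <;> simp
  have tN : t ∉ (inl : Q →* _).range := by rw [range_inl_eq_ker_rightHom]; simp [ht]
  have ct : ∀ g, Commute g t ↔ g.left ∈ C := fun g => by
    simp [ht, hC, Commute, SemiconjBy, SemidirectProduct.ext_iff, φ, ha, eq_comm, mul_comm]
  have act : ∀ g, Commute g t → ∀ b, g * inl (v b) * g⁻¹ = inl (v (g.right.2 * b)) := fun g hg b => by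
    ext <;> simp [φv, cm _ ((ct g).1 hg) _ (vm _)]
  have dec : ∀ g, Commute g t → ∃ b, g = inl (v b) * inr g.right := fun g hg =>
    ((vC _).1 ((ct g).1 hg)).imp fun b e => by rw [← e, inl_left_mul_inr_right]
  have zt : ∀ {x}, Commute t x → ∀ c ∈ zpowers t, Commute c x := by
    rintro x h _ ⟨m, rfl⟩; exact h.zpow_left m
  have kd : ∀ c ∈ zpowers t, c ∈ (⊥ : Subgroup _) ∨ t * c ∈ (⊥ : Subgroup _) := fun c hc =>
    (StdU3.mem_sup_invol tt (mem_Ns (by simp))).1 (mem_sup_right hc)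
  have tv : ∀ b, Commute t (inl (v b)) := fun b => ((ct _).2 (vm b)).symm
  have th : ∀ k, Commute t (inr (1, k)) := fun k => ((ct _).2 (one_mem _)).symm
  refine ⟨_, inferInstance, this, K, _, inferInstance,
    { t := t
      v := fun b => inl (v b)
      h := inr.comp (.inr _ _)
      K := zpowers t
      O := ⊥
      two := vi (by rw [← one_add_one_eq_two, va, h2 _ (vm 1), v0])
      big := cK ▸ n4
      t_sq := tt
      t_ne := fun e => tN (e ▸ one_mem _)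
      v_add := fun b c => by rw [va, map_mul]
      v_inj := inl_injective.comp vi
      t_v := tv
      t_h := th
      h_v := fun k => act _ (th k).symm
      semi := fun g hg _ => ⟨_, .refl _, act g hg⟩
      nh := fun g hg _ k => by
        obtain ⟨b, e⟩ := dec g hg
        refine ⟨b + k * b, k, ?_⟩
        rw [e, show ∀ x y z : Q ⋊[φ] (ℤˣ × Kˣ), x * y * z * (x * y)⁻¹ =
          x * (y * z * y⁻¹) * x⁻¹ from fun x y z => by group, MonoidHom.comp_apply, ← map_inv inr,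
          ← map_mul inr, ← map_mul inr, mul_inv_cancel_comm]
        ext <;> simp [φv, va, inv_eq_of_mul_eq_one_right (h2 _ (vm _))]
      ti := fun g hg _ _ _ => mem_Ns (by rintro _ ⟨b, rfl⟩; exact ⟨_, act g hg b⟩)
      t_K := mem_zpowers t
      K_t := zt (.refl _)
      K_v := fun c hc b => zt (tv b) c hc
      K_h := fun c hc k => zt (th k) c hc
      K_n := fun g hg => mem_Ns fun x hx => by rwa [conj_eq_of_commute (zt hg.symm x hx).symm]
      K_cyc := fun R hR _ => isCyclic_of_le hR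
      v_K := fun b hb => (kd _ hb).elim (fun e => vi ((inl_injective e).trans v0.symm)) fun e =>
        (tN ⟨(v b)⁻¹, by rw [map_inv]; exact (eq_inv_of_mul_eq_one_left e).symm⟩).elim
      cent := fun g hg H => by
        obtain ⟨b, e⟩ := dec g hg
        have : g.right.2 = 1 := Units.ext (by
          simpa using vi (inl_injective ((act g hg 1).symm.trans (conj_eq_of_commute (H 1)))))
        refine ⟨b, _, ?_, e⟩
        rcases Int.units_eq_one_or g.right.1 with a | a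
        · rw [show g.right = 1 from Prod.ext a this, map_one]; exact one_mem _
        · rw [show g.right = (-1, 1) from Prod.ext a this]; exact mem_zpowers _
      O_odd := by simp
      O_le := bot_le
      K_dec := kd }, inl.range, ⟨hQ.of_equiv (MonoidHom.ofInjective inl_injective), fun x y => ?_,
      ?_, ?_, tN⟩, cK, ⟨MonoidHom.ofInjective inl_injective⟩⟩
  · rw [range_inl_eq_ker_rightHom, MonoidHom.mem_ker, map_commutatorElement,
      commutatorElement_eq_one_iff_mul_comm, mul_comm]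
  · rintro _ ⟨b, rfl⟩; exact ⟨_, rfl⟩
  · rintro _ ⟨x, rfl⟩ e
    exact ((vC x).1 ((ct _).1 e)).imp fun b e => congrArg inl e

end Cfsg.Lib.StdL2
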